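import Cfsg.Agent.H940.L34.LemH
import Mathlib.LinearAlgebra.Dual.Lemmas

/-!
# S5917, type D: the Schur bridge (helper633)

`L0` acts on 8 copies `w : Fin 8` of an 8-dimensional space `M` by `rho x + lam w x`; `D ≤ L0` (where `lam` vanishes) acts
irreducibly (`schur`); two automorphisms `i j` of `L0` with the relations of the quaternion group permute the copies.
Then (O1) `lam w (i (i x)) = lam w x` and (O2) `rho (Tr x)` is nilpotent.
-/

set_option autoImplicit false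

namespace Cfsg.Agent.H633.L34.Psi

open Module Cfsg.Agent.H940.L34

variable {K : Type*} [Field K] {L M : Type*} [AddCommGroup L] [Module K L] [AddCommGroup M] [Module K M]

/-- the data of the blocks -/
structure Blk (L0 D : Submodule K L) (rho : L →ₗ[K] M →ₗ[K] M) (b : M →ₗ[K] M →ₗ[K] K) (Q : M → K) (c : L → K)
    (nw : Fin 8 → Fin 8) (lam : Fin 8 → L → K) : Prop where
  DL : D ≤ L0
  schur : ∀ T : M →ₗ[K] M, (∀ d ∈ D, ∀ v, T (rho d v) = rho d (T v)) → ∃ a : K, ∀ v, T v = a • v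
  nd : ∀ v, (∀ w, b w v = 0) → v = 0
  inv : ∀ d ∈ D, ∀ v w, b (rho d v) w = b v (rho d w)
  pol : ∀ v w, Q (v + w) = Q v + Q w + b v w
  hc : ∀ x ∈ L0, ∀ v, b (rho x v) v = c x * Q v
  x0 : ∃ x ∈ L0, c x ≠ 0
  lamD : ∀ w, ∀ d ∈ D, lam w d = 0
  lam0 : ∀ x ∈ L0, lam 0 x = 0
  lamz : ∀ w, ∀ x ∈ L0, lam (nw w) x = lam w x + lam (nw 0) x
  nwnw : ∀ w, nw (nw w) = w

/-- `g` permutes the blocks by `sg`, with the maps `G` -/
structure Act (L0 D : Submodule K L) (rho : L →ₗ[K] M →ₗ[K] M) (lam : Fin 8 → L → K) (g : L → L) (sg : Fin 8 → Fin 8)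
    (G : Fin 8 → M →ₗ[K] M) : Prop where
  m0 : ∀ x ∈ L0, g x ∈ L0
  mD : ∀ d ∈ D, g d ∈ D
  inj : ∀ w, Function.Injective (G w)
  eq : ∀ w, ∀ x ∈ L0, ∀ v, rho (g x) (G w v) + lam (sg w) (g x) • G w v = G w (rho x v + lam w x • v)

/-- `psi` normalises the action up to the scalars `s` -/
def E (L0 : Submodule K L) (rho : L →ₗ[K] M →ₗ[K] M) (g : L → L) (psi : M →ₗ[K] M) (s : L → K) : Prop :=
  ∀ x ∈ L0, ∀ v, rho (g x) (psi v) = psi (rho x v) + s x • psi v

/-- the sum over the quaternion group -/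
def TrL (i j : L → L) (x : L) : L :=
  x + i (i x) + (i x + i (i (i x))) + (j x + i (i (j x))) + (i (j x) + i (i (i (j x))))

section
variable [CharP K 2] {L0 D : Submodule K L} {rho : L →ₗ[K] M →ₗ[K] M} {b : M →ₗ[K] M →ₗ[K] K} {Q : M → K} {c : L → K}
  {nw : Fin 8 → Fin 8} {lam : Fin 8 → L → K}

omit [Module K M] [AddCommGroup M] in
theorem kk (a : K) : a + a = 0 := CharTwo.add_self_eq_zero a

theorem mm (K : Type*) [Field K] [CharP K 2] {M : Type*} [AddCommGroup M] [Module K M] (v : M) : v + v = 0 := by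
  rw [← two_smul K v, CharTwo.two_eq_zero, zero_smul]

theorem Blk.bvv (B : Blk L0 D rho b Q c nw lam) (v : M) : b v v = 0 := by
  have h0 : Q 0 = 0 := by
    have h := B.pol 0 0
    rw [add_zero, map_zero, add_zero] at h
    have h1 := kk (Q 0)
    rw [← h] at h1
    exact h1
  have h := B.pol v v
  rw [mm K v, h0, kk, zero_add] at h
  exact h.symm

theorem Blk.sym (B : Blk L0 D rho b Q c nw lam) (v w : M) : b v w = b w v := by
  have h := B.bvv (v + w)
  simp only [map_add, LinearMap.add_apply, B.bvv, zero_add, add_zero] at h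
  rw [add_comm] at h
  have h2 := kk (b w v)
  exact (add_right_cancel (h.trans h2.symm))

theorem E.comp {g h : L → L} {psi chi : M →ₗ[K] M} {s t : L → K} (hg : E L0 rho g psi s) (hh : E L0 rho h chi t)
    (hm : ∀ x ∈ L0, h x ∈ L0) : E L0 rho (fun x => g (h x)) (psi ∘ₗ chi) (fun x => t x + s (h x)) := by
  intro x hx v
  simp only [LinearMap.comp_apply]
  rw [hg _ (hm x hx), hh x hx, map_add, map_smul, add_smul, add_assoc]

theorem Act.E0 {g : L → L} {sg : Fin 8 → Fin 8} {G : Fin 8 → M →ₗ[K] M} (A : Act L0 D rho lam g sg G) (w : Fin 8) :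
    E L0 rho g (G w) (fun x => lam w x + lam (sg w) (g x)) := by
  intro x hx v
  have h := A.eq w x hx v
  rw [map_add, map_smul] at h
  rw [add_smul, ← add_assoc, ← h, add_assoc, mm K, add_zero]

/-- intertwining on `D` -/
theorem Act.int {g : L → L} {sg : Fin 8 → Fin 8} {G : Fin 8 → M →ₗ[K] M} (A : Act L0 D rho lam g sg G)
    (B : Blk L0 D rho b Q c nw lam) (w : Fin 8) {d : L} (hd : d ∈ D) (v : M) : rho (g d) (G w v) = G w (rho d v) := by
  rw [A.E0 w d (B.DL hd) v]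
  show _ + (lam w d + lam (sg w) (g d)) • _ = _
  rw [B.lamD w d hd, B.lamD _ _ (A.mD d hd), add_zero, zero_smul, add_zero]

variable [FiniteDimensional K M]

/-- proportionality of intertwiners -/
theorem Blk.prop (B : Blk L0 D rho b Q c nw lam) {g : L → L} {G G' : M →ₗ[K] M}
    (hG : ∀ d ∈ D, ∀ v, rho (g d) (G v) = G (rho d v)) (hG' : ∀ d ∈ D, ∀ v, rho (g d) (G' v) = G' (rho d v))
    (hi : Function.Injective G) : ∃ a : K, ∀ v, G' v = a • G v := by
  let e := LinearEquiv.ofInjectiveEndo G hi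
  have he : ∀ v, e v = G v := fun v => rfl
  have he' : ∀ v, G (e.symm v) = v := fun v => by rw [← he, LinearEquiv.apply_symm_apply]
  obtain ⟨a, ha⟩ := B.schur (e.symm.toLinearMap ∘ₗ G') (fun d hd v => by
    simp only [LinearMap.comp_apply, LinearEquiv.coe_coe]
    apply hi
    rw [he', ← hG' d hd, ← hG d hd, he'])
  refine ⟨a, fun v => ?_⟩
  have h := ha v
  simp only [LinearMap.comp_apply, LinearEquiv.coe_coe] at h
  rw [← he' (G' v), h, map_smul]

/-- similitude -/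
theorem Blk.sim [Nontrivial M] (B : Blk L0 D rho b Q c nw lam) {g : L → L} {G : M →ₗ[K] M}
    (hg : ∀ d ∈ D, g d ∈ D) (hG : ∀ d ∈ D, ∀ v, rho (g d) (G v) = G (rho d v))
    (hi : Function.Injective G) : ∃ a : K, a ≠ 0 ∧ ∀ v w, b (G v) (G w) = a * b v w := by
  have hbi : Function.Injective b := by
    rw [← LinearMap.ker_eq_bot, LinearMap.ker_eq_bot']
    intro v hv
    apply B.nd
    intro w
    rw [B.sym, hv]
    rfl
  let f : M ≃ₗ[K] (M →ₗ[K] K) := LinearEquiv.ofInjectiveOfFinrankEq b hbi (_root_.Subspace.dual_finrank_eq (K := K) (V := M)).symm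
  have hf : ∀ v, f v = b v := fun v => rfl
  let T : M →ₗ[K] M := f.symm.toLinearMap ∘ₗ (LinearMap.lcomp K K G ∘ₗ b ∘ₗ G)
  have hT : ∀ v w, b (T v) w = b (G v) (G w) := by
    intro v w
    have : f (T v) = LinearMap.lcomp K K G (b (G v)) := by
      simp only [T, LinearMap.comp_apply, LinearEquiv.coe_coe, LinearEquiv.apply_symm_apply]
    rw [hf] at this
    rw [this]
    rfl
  obtain ⟨a, ha⟩ := B.schur T (fun d hd v => by
    apply hbi
    ext w
    rw [hT, ← hG d hd, B.inv _ (hg d hd), hG d hd, ← hT, ← B.inv d hd])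
  have hT2 : ∀ v w, b (G v) (G w) = a * b v w := by
    intro v w
    rw [← hT, ha, map_smul, LinearMap.smul_apply, smul_eq_mul]
  refine ⟨a, ?_, hT2⟩
  rintro rfl
  obtain ⟨v, hv⟩ := exists_ne (0 : M)
  apply hv
  apply hi
  rw [map_zero]
  apply B.nd
  intro w
  obtain ⟨w', rfl⟩ := (LinearMap.injective_iff_surjective.1 hi) w
  rw [hT2, zero_mul]

/-- normalisation -/
theorem Blk.exists_psi [Nontrivial M] (hsq : ∀ a : K, ∃ r, r * r = a) (B : Blk L0 D rho b Q c nw lam) {g : L → L}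
    {sg : Fin 8 → Fin 8} {G : Fin 8 → M →ₗ[K] M} (A : Act L0 D rho lam g sg G) :
    ∃ psi : M →ₗ[K] M, (∀ v w, b (psi v) (psi w) = b v w) ∧ (∀ d ∈ D, ∀ v, rho (g d) (psi v) = psi (rho d v)) ∧
      ∀ w, E L0 rho g psi (fun x => lam w x + lam (sg w) (g x)) := by
  obtain ⟨a, ha, h⟩ := B.sim A.mD (fun d hd v => A.int B 0 hd v) (A.inj 0)
  obtain ⟨r, hr⟩ := hsq a
  have hr0 : r ≠ 0 := by
    rintro rfl
    exact ha (by rw [← hr, zero_mul])
  have hi : ∀ d ∈ D, ∀ v, rho (g d) ((r⁻¹ • G 0) v) = (r⁻¹ • G 0) (rho d v) := by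
    intro d hd v
    rw [LinearMap.smul_apply, LinearMap.smul_apply, map_smul, A.int B 0 hd]
  have hpi : Function.Injective (r⁻¹ • G 0) := by
    intro v w hvw
    rw [LinearMap.smul_apply, LinearMap.smul_apply] at hvw
    exact A.inj 0 (smul_right_injective M (inv_ne_zero hr0) hvw)
  refine ⟨r⁻¹ • G 0, fun v w => ?_, hi, fun w x hx v => ?_⟩
  · simp only [LinearMap.smul_apply, map_smul, smul_eq_mul]
    rw [h, ← hr]
    field_simp
  · obtain ⟨e, he⟩ := B.prop (fun d hd v => A.int B w hd v) hi (A.inj w)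
    rw [he, he, map_smul, A.E0 w x hx v, smul_add, smul_comm]

/-- uniqueness -/
theorem Blk.uniq [Nontrivial M] (B : Blk L0 D rho b Q c nw lam) {g : L → L} {G G' : M →ₗ[K] M}
    (hG : ∀ d ∈ D, ∀ v, rho (g d) (G v) = G (rho d v)) (hG' : ∀ d ∈ D, ∀ v, rho (g d) (G' v) = G' (rho d v))
    (hb : ∀ v w, b (G v) (G w) = b v w) (hb' : ∀ v w, b (G' v) (G' w) = b v w) (v : M) : G' v = G v := by
  have hi : Function.Injective G := by
    rw [← LinearMap.ker_eq_bot, LinearMap.ker_eq_bot']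
    intro v hv
    apply B.nd
    intro w
    rw [← hb, hv, map_zero]
  obtain ⟨a, ha⟩ := B.prop hG hG' hi
  obtain ⟨u, hu⟩ := exists_ne (0 : M)
  obtain ⟨w, hw⟩ : ∃ w, b w u ≠ 0 := by
    by_contra hcon
    push Not at hcon
    exact hu (B.nd u hcon)
  have h1 := hb' w u
  simp only [ha, map_smul, LinearMap.smul_apply, smul_eq_mul, hb] at h1
  rw [← mul_assoc] at h1
  have h2 : a * a = 1 := mul_right_cancel₀ hw (by rw [h1, one_mul])
  have h3 : (a + 1) * (a + 1) = 0 := by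
    have := kk (1 : K)
    have h4 := kk a
    linear_combination h2 + h4 + this
  have h5 : a + 1 = 0 := mul_self_eq_zero.1 h3
  have h6 : a = 1 := add_right_cancel (h5.trans (kk (1 : K)).symm)
  rw [ha, h6, one_smul]

/-- an isometry of `b` normalising the action of `L0` is an isometry of `Q` -/
theorem Blk.isoQ [Nontrivial M] (B : Blk L0 D rho b Q c nw lam) {g : L → L} {psi : M →ₗ[K] M} {s : L → K}
    (hm : ∀ x ∈ L0, g x ∈ L0) (hb : ∀ v w, b (psi v) (psi w) = b v w) (hE : E L0 rho g psi s) (v : M) :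
    Q (psi v) = Q v := by
  obtain ⟨x, hx, hc0⟩ := B.x0
  have key : ∀ v, c (g x) * Q (psi v) = c x * Q v := by
    intro v
    rw [← B.hc _ (hm x hx), hE x hx, map_add, LinearMap.add_apply, map_smul, LinearMap.smul_apply, B.bvv, smul_zero,
      add_zero, hb, B.hc x hx]
  obtain ⟨u, hu⟩ := exists_ne (0 : M)
  obtain ⟨w, hw⟩ : ∃ w, b w u ≠ 0 := by
    by_contra hcon
    push Not at hcon
    exact hu (B.nd u hcon)
  have h1 := key (w + u)
  rw [map_add, B.pol, B.pol, mul_add, mul_add, mul_add, mul_add, key, key, hb] at h1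
  have h2 : c (g x) * b w u = c x * b w u := by linear_combination h1
  have h3 : c (g x) = c x := mul_right_cancel₀ hw h2
  have h4 := key v
  rw [h3] at h4
  exact mul_left_cancel₀ hc0 h4

theorem E.s_uniq {g : L → L} {psi : M →ₗ[K] M} {s t : L → K} (hs : E L0 rho g psi s) (ht : E L0 rho g psi t)
    {v : M} (hv : psi v ≠ 0) {x : L} (hx : x ∈ L0) : s x = t x := by
  have h := (hs x hx v).symm.trans (ht x hx v)
  exact smul_left_injective K hv (add_left_cancel h)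

/-- the family of the block equations after normalisation -/
def Fam (L0 : Submodule K L) (rho : L →ₗ[K] M →ₗ[K] M) (lam : Fin 8 → L → K) (g : L → L) (sg : Fin 8 → Fin 8)
    (psi : M →ₗ[K] M) : Prop :=
  ∀ w, E L0 rho g psi (fun x => lam w x + lam (sg w) (g x))

omit [FiniteDimensional K M] in
theorem Fam.comp {g h : L → L} {sg sh : Fin 8 → Fin 8} {psi chi : M →ₗ[K] M} (hg : Fam L0 rho lam g sg psi)
    (hh : Fam L0 rho lam h sh chi) (hm : ∀ x ∈ L0, h x ∈ L0) :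
    Fam L0 rho lam (fun x => g (h x)) (fun w => sg (sh w)) (psi ∘ₗ chi) := by
  intro w x hx v
  rw [((hg (sh w)).comp (hh w) hm) x hx v]
  congr 2
  show lam w x + lam (sh w) (h x) + (lam (sh w) (h x) + lam (sg (sh w)) (g (h x))) = _
  rw [← add_assoc, add_assoc (lam w x), kk, add_zero]

omit [FiniteDimensional K M] in
theorem Fam.id : Fam L0 rho lam (fun x => x) (fun w => w) (LinearMap.id : M →ₗ[K] M) := by
  intro w x hx v
  show rho x v = rho x v + (lam w x + lam w x) • v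
  rw [kk, zero_smul, add_zero]

omit [FiniteDimensional K M] in
theorem iso_comp {psi chi : M →ₗ[K] M} (h1 : ∀ v w, b (psi v) (psi w) = b v w) (h2 : ∀ v w, b (chi v) (chi w) = b v w) :
    ∀ v w, b ((psi ∘ₗ chi) v) ((psi ∘ₗ chi) w) = b v w := fun v w => by
  simp only [LinearMap.comp_apply, h1, h2]

omit [FiniteDimensional K M] in
theorem int_comp {g h : L → L} {psi chi : M →ₗ[K] M} (h1 : ∀ d ∈ D, ∀ v, rho (g d) (psi v) = psi (rho d v))
    (h2 : ∀ d ∈ D, ∀ v, rho (h d) (chi v) = chi (rho d v)) (hm : ∀ d ∈ D, h d ∈ D) :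
    ∀ d ∈ D, ∀ v, rho (g (h d)) ((psi ∘ₗ chi) v) = (psi ∘ₗ chi) (rho d v) := fun d hd v => by
  simp only [LinearMap.comp_apply]
  rw [h1 _ (hm d hd), h2 d hd]

/-- **the bridge** -/
theorem main' (hV : finrank K M = 8) (hsq : ∀ a : K, ∃ r, r * r = a) (B : Blk L0 D rho b Q c nw lam)
    {i j : L → L} {si sj : Fin 8 → Fin 8} {Gi Gj : Fin 8 → M →ₗ[K] M} (hi : Act L0 D rho lam i si Gi)
    (hj : Act L0 D rho lam j sj Gj) (h4 : ∀ x ∈ L0, i (i (i (i x))) = x) (hjj : ∀ x ∈ L0, j (j x) = i (i x))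
    (hji : ∀ x ∈ L0, j (i x) = i (i (i (j x)))) (hsi : ∀ w, si (si w) = nw w) (hsj : ∀ w, sj (sj w) = nw w) :
    ∃ pi pj : M →ₗ[K] M, Q8 pi pj (pi ∘ₗ pi) ∧ (∀ v, Q (pi v) = Q v) ∧ (∀ v, Q (pj v) = Q v) ∧
      Fam L0 rho lam i si pi ∧ Fam L0 rho lam j sj pj ∧ (∀ x ∈ L0, ∀ w, lam w (i (i x)) = lam w x) ∧
      (∀ x ∈ L0, rho (TrL i j x) = trQ pi pj (pi ∘ₗ pi) (rho x)) ∧ ∀ x ∈ L0, IsNilpotent (rho (TrL i j x)) := by
  have hnt : Nontrivial M := nontrivial_of_finrank_pos (R := K) (by rw [hV]; norm_num)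
  obtain ⟨pi, bi, ii, Ei⟩ := B.exists_psi hsq hi
  obtain ⟨pj, bj, ij, Ej⟩ := B.exists_psi hsq hj
  change Fam L0 rho lam i si pi at Ei
  change Fam L0 rho lam j sj pj at Ej
  have m1 : ∀ x ∈ L0, i x ∈ L0 := hi.m0
  have m2 : ∀ x ∈ L0, i (i x) ∈ L0 := fun x hx => m1 _ (m1 x hx)
  have mj : ∀ x ∈ L0, j x ∈ L0 := hj.m0
  have d1 : ∀ x ∈ D, i x ∈ D := hi.mD
  have d2 : ∀ x ∈ D, i (i x) ∈ D := fun x hx => d1 _ (d1 x hx)
  have dj : ∀ x ∈ D, j x ∈ D := hj.mD
  -- the square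
  have Ez : Fam L0 rho lam (fun x => i (i x)) nw (pi ∘ₗ pi) := by
    have h := Ei.comp Ei m1
    intro w
    have h' := h w
    simp only [hsi] at h'
    exact h'
  have bz := iso_comp bi bi
  have iz := int_comp ii ii d1
  have iid : ∀ d ∈ D, ∀ v, rho d ((LinearMap.id : M →ₗ[K] M) v) = (LinearMap.id : M →ₗ[K] M) (rho d v) := fun d _ v => rfl
  have hq8 : Q8 pi pj (pi ∘ₗ pi) := by
    refine ⟨fun v => ?_, fun v => rfl, fun v => ?_, fun v => ?_⟩
    · have hz4 := int_comp iz iz d2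
      exact B.uniq (g := fun x => x) (G := LinearMap.id) (G' := (pi ∘ₗ pi) ∘ₗ (pi ∘ₗ pi)) iid
        (fun d hd v => by
          have h := hz4 d hd v
          simp only [h4 d (B.DL hd)] at h
          exact h) (fun v w => rfl) (iso_comp bz bz) v
    · exact B.uniq (g := fun x => i (i x)) (G := pi ∘ₗ pi) (G' := pj ∘ₗ pj) iz
        (fun d hd v => by
          have h := int_comp ij ij dj d hd v
          simp only [hjj d (B.DL hd)] at h
          exact h) bz (iso_comp bj bj) v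
    · exact B.uniq (g := fun x => j (i x)) (G := (pi ∘ₗ pi) ∘ₗ (pi ∘ₗ pj)) (G' := pj ∘ₗ pi)
        (fun d hd v => by
          have h := int_comp iz (int_comp ii ij dj) (fun x hx => d1 _ (dj x hx)) d hd v
          simp only [← hji d (B.DL hd)] at h
          exact h)
        (int_comp ij ii d1) (iso_comp bz (iso_comp bi bj)) (iso_comp bj bi) v
  have hz0 : ∃ v, (pi ∘ₗ pi) v ≠ 0 := by
    obtain ⟨u, hu⟩ := exists_ne (0 : M)
    refine ⟨(pi ∘ₗ pi) u, ?_⟩
    rw [hq8.zz]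
    exact hu
  have hi0 : ∃ v, pi v ≠ 0 := by
    obtain ⟨u, hu⟩ := exists_ne (0 : M)
    refine ⟨pi ((pi ∘ₗ pi) u), fun h => hu ?_⟩
    rw [← hq8.zz u]
    exact h
  have hj0 : ∃ v, pj v ≠ 0 := by
    obtain ⟨u, hu⟩ := exists_ne (0 : M)
    refine ⟨pj ((pi ∘ₗ pi) u), fun h => hu ?_⟩
    rw [← hq8.zz u, ← hq8.jj]
    exact h
  obtain ⟨uz, huz⟩ := hz0
  obtain ⟨ui, hui⟩ := hi0
  obtain ⟨uj, huj⟩ := hj0
  -- `lam (nw 0)`
  have hL : ∀ x ∈ L0, lam (nw 0) (i (i x)) = lam (nw 0) x := by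
    intro x hx
    have h := (Ez (nw 0)).s_uniq (Ez 0) huz hx
    simp only [B.nwnw, B.lam0 x hx, B.lam0 _ (m2 x hx), add_zero, zero_add] at h
    exact h.symm
  have O1 : ∀ x ∈ L0, ∀ w, lam w (i (i x)) = lam w x := by
    intro x hx w
    have h := (Ez (nw w)).s_uniq (Ez 0) huz hx
    simp only [B.nwnw, B.lam0 x hx, zero_add, hL x hx] at h
    have h2 := B.lamz w x hx
    rw [h2] at h
    have h3 := kk (lam (nw 0) x)
    linear_combination h - h3 - kk (lam w x) + h3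
  have Li : ∀ x ∈ L0, lam (nw 0) (i x) = lam (nw 0) x := by
    intro x hx
    have h := (Ei (nw 0)).s_uniq (Ei 0) hui hx
    have e : si (nw 0) = nw (si 0) := by rw [← hsi, ← hsi]
    simp only [e, B.lam0 x hx, zero_add, B.lamz (si 0) _ (m1 x hx)] at h
    linear_combination h - kk (lam (nw 0) x)
  have Lj : ∀ x ∈ L0, lam (nw 0) (j x) = lam (nw 0) x := by
    intro x hx
    have h := (Ej (nw 0)).s_uniq (Ej 0) huj hx
    have e : sj (nw 0) = nw (sj 0) := by rw [← hsj, ← hsj]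
    simp only [e, B.lam0 x hx, zero_add, B.lamz (sj 0) _ (mj x hx)] at h
    linear_combination h - kk (lam (nw 0) x)
  have Qi : ∀ v, Q (pi v) = Q v := B.isoQ m1 bi (Ei 0)
  have Qj : ∀ v, Q (pj v) = Q v := B.isoQ mj bj (Ej 0)
  suffices h : ∀ x ∈ L0, rho (TrL i j x) = trQ pi pj (pi ∘ₗ pi) (rho x) from
    ⟨pi, pj, hq8, Qi, Qj, Ei, Ej, O1, h, fun x hx => by
      rw [h x hx]
      exact trQ_nil hV hq8 B.pol Qi Qj B.nd (B.hc x hx)⟩
  intro x hx
  -- the pairs
  have pair : ∀ {g : L → L} {sg : Fin 8 → Fin 8} {psi psi' : M →ₗ[K] M}, Fam L0 rho lam g sg psi → (∀ x ∈ L0, g x ∈ L0) →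
      (∀ v, psi (psi' v) = v) → lam (nw 0) (g x) = lam (nw 0) x → ∀ v, rho (g x) v + rho (i (i (g x))) v =
        psi (rho x (psi' v)) + (pi ∘ₗ pi) (psi (rho x (psi' ((pi ∘ₗ pi) v)))) + lam (nw 0) x • v := by
    intro g sg psi psi' hg hm hp hl v
    have e1 := hg 0 x hx (psi' v)
    have e2 := (Ez.comp hg hm) 0 x hx (psi' ((pi ∘ₗ pi) v))
    rw [hp] at e1
    have e3 : ((pi ∘ₗ pi) ∘ₗ psi) (psi' ((pi ∘ₗ pi) v)) = v := by
      rw [LinearMap.comp_apply, hp, hq8.zz]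
    rw [e3] at e2
    rw [e1, e2]
    have e4 : lam (nw (sg 0)) (i (i (g x))) = lam (sg 0) (g x) + lam (nw 0) x := by
      rw [O1 _ (hm x hx), B.lamz _ _ (hm x hx), hl]
    simp only [e4, B.lam0 x hx, zero_add]
    rw [add_smul, LinearMap.comp_apply (pi ∘ₗ pi) psi]
    have := mm K (lam (sg 0) (g x) • v)
    calc _ = (psi (rho x (psi' v)) + (pi ∘ₗ pi) (psi (rho x (psi' ((pi ∘ₗ pi) v)))) + lam (nw 0) x • v) +
          (lam (sg 0) (g x) • v + lam (sg 0) (g x) • v) := by abel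
      _ = _ := by rw [this, add_zero]
  have P1 := pair Fam.id (fun x hx => hx) (psi' := LinearMap.id) (fun v => rfl) rfl
  have P2 := pair Ei m1 (psi' := pi ∘ₗ (pi ∘ₗ pi)) (fun v => hq8.zz v) (Li x hx)
  have P3 := pair Ej mj (psi' := pj ∘ₗ (pi ∘ₗ pi)) (fun v => by
    show pj (pj ((pi ∘ₗ pi) v)) = v
    rw [hq8.jj, hq8.zz]) (Lj x hx)
  have P4 := pair (Ei.comp Ej mj) (fun x hx => m1 _ (mj x hx)) (psi' := pj ∘ₗ pi) (fun v => by
    show pi (pj (pj (pi v))) = v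
    rw [hq8.jj]
    exact hq8.zz v) (by rw [Li _ (mj x hx), Lj x hx])
  have key : rho (TrL i j x) = trQ pi pj (pi ∘ₗ pi) (rho x) := by
    ext v
    have e0 : rho (TrL i j x) v = (rho x v + rho (i (i x)) v) + (rho (i x) v + rho (i (i (i x))) v) +
        (rho (j x) v + rho (i (i (j x))) v) + (rho (i (j x)) v + rho (i (i (i (j x)))) v) := by
      unfold TrL
      simp only [map_add, LinearMap.add_apply]
    rw [e0, P1 v, P2 v, P3 v, P4 v]
    have hz : ∀ u, pi (pi (pi (pi u))) = u := hq8.zz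
    have hzj : ∀ u, pi (pi (pj u)) = pj (pi (pi u)) := hq8.zj
    have hji' : ∀ u, pj (pi u) = pi (pi (pi (pj u))) := hq8.ji
    unfold trQ
    simp only [LinearMap.add_apply, LinearMap.comp_apply, LinearMap.id_apply, hz, hzj]
    have h4l := mm K (lam (nw 0) x • v + lam (nw 0) x • v)
    generalize lam (nw 0) x • v = l at h4l ⊢
    rw [← sub_eq_zero, ← h4l]
    abel
  exact key

/-- **the bridge**, short form -/
theorem main (hV : finrank K M = 8) (hsq : ∀ a : K, ∃ r, r * r = a) (B : Blk L0 D rho b Q c nw lam)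
    {i j : L → L} {si sj : Fin 8 → Fin 8} {Gi Gj : Fin 8 → M →ₗ[K] M} (hi : Act L0 D rho lam i si Gi)
    (hj : Act L0 D rho lam j sj Gj) (h4 : ∀ x ∈ L0, i (i (i (i x))) = x) (hjj : ∀ x ∈ L0, j (j x) = i (i x))
    (hji : ∀ x ∈ L0, j (i x) = i (i (i (j x)))) (hsi : ∀ w, si (si w) = nw w) (hsj : ∀ w, sj (sj w) = nw w) :
    (∀ x ∈ L0, ∀ w, lam w (i (i x)) = lam w x) ∧ ∀ x ∈ L0, IsNilpotent (rho (TrL i j x)) := by
  obtain ⟨_, _, _, _, _, _, _, h1, _, h2⟩ := main' hV hsq B hi hj h4 hjj hji hsi hsj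
  exact ⟨h1, h2⟩

end

end Cfsg.Agent.H633.L34.Psi
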