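import Mathlib

/-!
# S5917, type (D): relative traces of infinitesimal similitudes for a quaternion group (helper633)

`K` a field of characteristic 2, `M` of dimension 8, `i`, `j` isometries of a nondegenerate quadratic form which
generate a quaternion group, `A` with `b m (A m) = c * Q m`.  If the trace `∑ g A g⁻¹` over the quaternion group is a
scalar `s`, then `s = 0` (`higman`).  If `M` is a free module for the quaternion group, all these traces have
pairwise products zero (`tr8_mul_tr8`).
-/

set_option autoImplicit false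
set_option linter.unusedSectionVars false

namespace Cfsg.Agent.H633.L34

open Module

theorem add_self' (K : Type*) {M : Type*} [Field K] [CharP K 2] [AddCommGroup M] [Module K M] (x : M) : x + x = 0 := by
  have h : (2 : K) = 0 := CharTwo.two_eq_zero
  rw [← two_smul K x, h, zero_smul]

theorem eq_of_add' (K : Type*) {M : Type*} [Field K] [CharP K 2] [AddCommGroup M] [Module K M] {x y : M}
    (h : x + y = 0) : x = y := by
  have h1 : x + y + y = y := by rw [h, zero_add]
  rwa [add_assoc, add_self' K y, add_zero] at h1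

variable {K M : Type*} [Field K] [CharP K 2] [AddCommGroup M] [Module K M]

/-- the trace over the quaternion group generated by `i`, `j` (`z = i * i`) -/
def tr8 (i j A : End K M) : End K M :=
  A + (i * i) * A * (i * i) + i * A * (i * i * i) + (i * i * i) * A * i + j * A * (i * i * j) + (i * i * j) * A * j +
    (i * j) * A * (j * i) + (i * i * (i * j)) * A * (i * i * (j * i))

/-- `1 + z` -/
def nn (i : End K M) : End K M := 1 + i * i

theorem nn_apply (i : End K M) (x : M) : nn i x = x + i (i x) := by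
  simp [nn]

/-- `α = 1 + i` -/
def al (i : End K M) : End K M := 1 + i

theorem al_apply (i : End K M) (x : M) : al i x = x + i x := by
  simp [al]

section
variable {i j : End K M} (hz : ∀ x, i (i (i (i x))) = x) (hj : ∀ x, j (j x) = i (i x))
  (hij : ∀ x, i (j x) = i (i (j (i x))))
include hz hj hij

theorem zj (x : M) : j (i (i x)) = i (i (j x)) := by
  rw [← hj, ← hj]

theorem ji (x : M) : j (i x) = i (i (i (j x))) := by
  rw [hij x, hz]

theorem jij (x : M) : j (i (j x)) = i x := by
  rw [hij x, zj hz hj hij, hj, hz]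

theorem iji (x : M) : i (j (i x)) = j x := by
  rw [hij (i x), zj hz hj hij, hz]

/-- the trace of a vector -/
theorem tr8_apply (A : End K M) (x : M) : tr8 i j A x =
    (A x + i (i (A (i (i x))))) + i (A (i (i (i x))) + i (i (A (i x)))) +
      j (A (i (i (j x))) + i (i (A (j x)))) + i (j (A (j (i x)) + i (i (A (i (i (j (i x)))))))) := by
  simp only [tr8, LinearMap.add_apply, Module.End.mul_apply, map_add]
  rw [zj hz hj hij, zj hz hj hij]
  abel

theorem nn_z (x : M) : nn i (i (i x)) = nn i x := by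
  rw [nn_apply, nn_apply, hz, add_comm]

theorem z_nn (x : M) : i (i (nn i x)) = nn i x := by
  rw [nn_apply, map_add, map_add, hz, add_comm]

theorem nn_nn (x : M) : nn i (nn i x) = 0 := by
  rw [nn_apply i (nn i x), z_nn hz hj hij, add_self' K]

theorem nn_i (x : M) : nn i (i x) = i (nn i x) := by
  rw [nn_apply, nn_apply, map_add]

theorem nn_j (x : M) : nn i (j x) = j (nn i x) := by
  rw [nn_apply, nn_apply, map_add, zj hz hj hij]

end

/-! ### independence -/
section
variable {i j : End K M} (hz : ∀ x, i (i (i (i x))) = x) (hj : ∀ x, j (j x) = i (i x))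
  (hij : ∀ x, i (j x) = i (i (j (i x))))
include hz hj hij

omit hz hj hij in
theorem al_al (i : End K M) (y : M) : al i (al i y) = nn i y := by
  rw [al_apply, al_apply, map_add, nn_apply]
  have := add_self' K (i y)
  calc y + i y + (i y + i (i y)) = y + (i y + i y) + i (i y) := by abel
    _ = _ := by rw [this, add_zero]

theorem be_be (y : M) : al j (al j y) = nn i y := by
  rw [al_al, nn_apply, nn_apply, hj]

theorem al_nn (y : M) : al i (nn i y) = nn i (al i y) := by
  rw [al_apply, al_apply, map_add, nn_i hz hj hij]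

theorem be_nn (y : M) : al j (nn i y) = nn i (al j y) := by
  rw [al_apply, al_apply, map_add, nn_j hz hj hij]

theorem nn_al_al (y : M) : nn i (al i (al i y)) = 0 := by
  rw [al_al, nn_nn hz hj hij]

theorem nn_be_be (y : M) : nn i (al j (al j y)) = 0 := by
  rw [be_be hz hj hij, nn_nn hz hj hij]

theorem nn_al_be (y : M) : nn i (al i (al j y)) = nn i (al j (al i y)) := by
  rw [al_apply, al_apply, al_apply, al_apply]
  simp only [map_add]
  rw [hij y, nn_z hz hj hij]
  abel

theorem ind4 {x : M} (hx : nn i (al j (al i x)) ≠ 0) {a0 a1 a2 a3 : K}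
    (h : a0 • nn i x + a1 • nn i (al i x) + a2 • nn i (al j x) + a3 • nn i (al j (al i x)) = 0) :
    a0 = 0 ∧ a1 = 0 ∧ a2 = 0 ∧ a3 = 0 := by
  have F1 : nn i (al j (al i (al i x))) = 0 := by
    rw [← be_nn hz hj hij, nn_al_al hz hj hij, map_zero]
  have F2 : nn i (al j (al i (al j x))) = 0 := by
    rw [← be_nn hz hj hij, nn_al_be hz hj hij, be_nn hz hj hij, nn_be_be hz hj hij]
  have F3 : nn i (al j (al i (al j (al i x)))) = 0 := by
    rw [← be_nn hz hj hij, nn_al_be hz hj hij, be_nn hz hj hij, nn_be_be hz hj hij]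
  have h0 : a0 = 0 := by
    have h1 := congrArg (fun v => al j (al i v)) h
    simp only [map_add, map_smul, map_zero, al_nn hz hj hij, be_nn hz hj hij, F1, F2, F3, smul_zero, add_zero] at h1
    exact (smul_eq_zero.1 h1).resolve_right hx
  subst h0
  rw [zero_smul, zero_add] at h
  have h1 : a1 = 0 := by
    have h1 := congrArg (fun v => al j v) h
    simp only [map_add, map_smul, map_zero, be_nn hz hj hij, nn_be_be hz hj hij, smul_zero, add_zero] at h1
    exact (smul_eq_zero.1 h1).resolve_right hx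
  subst h1
  rw [zero_smul, zero_add] at h
  have h2 : a2 = 0 := by
    have h1 := congrArg (fun v => al i v) h
    have F4 : nn i (al i (al j (al i x))) = 0 := by
      rw [nn_al_be hz hj hij, ← be_nn hz hj hij, nn_al_al hz hj hij, map_zero]
    simp only [map_add, map_smul, map_zero, al_nn hz hj hij, F4, smul_zero, add_zero] at h1
    rw [nn_al_be hz hj hij] at h1
    exact (smul_eq_zero.1 h1).resolve_right hx
  subst h2
  rw [zero_smul, zero_add] at h
  exact ⟨rfl, rfl, rfl, (smul_eq_zero.1 h).resolve_right hx⟩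

/-- the eight vectors -/
def fam (i j : End K M) (x : M) : Fin 8 → M :=
  ![x, al i x, al j x, al j (al i x), nn i x, nn i (al i x), nn i (al j x), nn i (al j (al i x))]

theorem fam_indep {x : M} (hx : nn i (al j (al i x)) ≠ 0) : LinearIndependent K (fam i j x) := by
  rw [Fintype.linearIndependent_iff]
  intro g hg
  simp only [Fin.sum_univ_eight, fam] at hg
  have hg' : g 0 • x + g 1 • al i x + g 2 • al j x + g 3 • al j (al i x) + g 4 • nn i x + g 5 • nn i (al i x) +
      g 6 • nn i (al j x) + g 7 • nn i (al j (al i x)) = 0 := hg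
  have h1 := congrArg (fun v => nn i v) hg'
  simp only [map_add, map_smul, map_zero, nn_nn hz hj hij, smul_zero, add_zero] at h1
  obtain ⟨h0, h1, h2, h3⟩ := ind4 hz hj hij hx h1
  rw [h0, h1, h2, h3] at hg'
  simp only [zero_smul, zero_add] at hg'
  obtain ⟨h4, h5, h6, h7⟩ := ind4 hz hj hij hx hg'
  intro k
  fin_cases k <;> assumption

theorem fam_span (hd : finrank K M = 8) {x : M} (hx : nn i (al j (al i x)) ≠ 0) :
    Submodule.span K (Set.range (fam i j x)) = ⊤ := by
  have : FiniteDimensional K M := FiniteDimensional.of_finrank_pos (by rw [hd]; norm_num)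
  exact (fam_indep hz hj hij hx).span_eq_top_of_card_eq_finrank (by rw [hd]; rfl)

/-- a nonzero vector fixed by `i` and `j` -/
theorem exists_fixed [Nontrivial M] : ∃ y : M, y ≠ 0 ∧ i y = y ∧ j y = y := by
  obtain ⟨x, hx⟩ := exists_ne (0 : M)
  -- fixed by `z`
  obtain ⟨x1, hx1, hz1⟩ : ∃ x : M, x ≠ 0 ∧ nn i x = 0 := by
    by_cases h : nn i x = 0
    · exact ⟨x, hx, h⟩
    · exact ⟨nn i x, h, nn_nn hz hj hij x⟩
  obtain ⟨x2, hx2, hz2, hi2⟩ : ∃ x : M, x ≠ 0 ∧ nn i x = 0 ∧ al i x = 0 := by
    by_cases h : al i x1 = 0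
    · exact ⟨x1, hx1, hz1, h⟩
    · refine ⟨al i x1, h, ?_, ?_⟩
      · rw [← al_nn hz hj hij, hz1, map_zero]
      · rw [al_al, hz1]
  have hfi : i x2 = x2 := (eq_of_add' K (by rw [← al_apply, hi2])).symm
  by_cases h : al j x2 = 0
  · exact ⟨x2, hx2, hfi, (eq_of_add' K (by rw [← al_apply, h])).symm⟩
  · refine ⟨al j x2, h, ?_, ?_⟩
    · rw [al_apply, map_add, hfi]
      congr 1
      rw [hij, hfi, ← zj hz hj hij, hfi, hfi]
    · have : al j (al j x2) = 0 := by rw [be_be hz hj hij, hz2]
      exact (eq_of_add' K (by rw [← al_apply, this])).symm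

end

/-! ### the bilinear form -/
section
variable {i j : End K M} (hz : ∀ x, i (i (i (i x))) = x) (hj : ∀ x, j (j x) = i (i x))
  (hij : ∀ x, i (j x) = i (i (j (i x))))
  {b : M →ₗ[K] M →ₗ[K] K} {Q : M → K} (hQ : ∀ x y, Q (x + y) = Q x + Q y + b x y)
  (hbi : ∀ x y, b (i x) (i y) = b x y) (hbj : ∀ x y, b (j x) (j y) = b x y)
  (hQi : ∀ x, Q (i x) = Q x) (hQj : ∀ x, Q (j x) = Q x)
  {A : End K M} {c : K} (hA : ∀ m, b m (A m) = c * Q m)
include hz hj hij hQ hbi hbj hQi hQj hA

theorem b_comm (x y : M) : b x y = b y x := by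
  have h1 := hQ x y
  have h2 := hQ y x
  rw [add_comm y x] at h2
  have : Q x + Q y + b x y = Q x + Q y + b y x := by rw [← h1, h2]; ring
  exact add_left_cancel this

theorem b_z (x y : M) : b x (i (i y)) = b (i (i x)) y := by
  rw [← hbi x, ← hbi (i x), hz]

theorem b_nn (x y : M) : b (nn i x) y = b x (nn i y) := by
  rw [nn_apply, nn_apply, map_add, map_add, LinearMap.add_apply, b_z hz hj hij hQ hbi hbj hQi hQj hA]

/-- the form `B` -/
def BB (i A : End K M) (b : M →ₗ[K] M →ₗ[K] K) (x y : M) : K := b (nn i x) (A (nn i y))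

theorem BB_comm (x y : M) : BB i A b x y = BB i A b y x := by
  have h1 := hA (nn i x + nn i y)
  simp only [map_add, LinearMap.add_apply, hA, hQ] at h1
  have h2 : b (nn i x) (nn i y) = 0 := by
    rw [b_nn hz hj hij hQ hbi hbj hQi hQj hA, nn_nn hz hj hij, map_zero]
  rw [h2, add_zero] at h1
  have h3 : b (nn i x) (A (nn i y)) + b (nn i y) (A (nn i x)) = 0 := by
    have h4 : (b (nn i x) (A (nn i y)) + b (nn i y) (A (nn i x))) + (c * Q (nn i x) + c * Q (nn i y)) =
      0 + (c * Q (nn i x) + c * Q (nn i y)) := by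
      linear_combination h1
    exact add_right_cancel h4
  exact eq_of_add' K h3

theorem BB_self (x : M) : BB i A b x x = c * Q (nn i x) := hA _

/-- the trace form -/
def SS (i j A : End K M) (b : M →ₗ[K] M →ₗ[K] K) (x y : M) : K :=
  BB i A b x y + BB i A b (i x) (i y) + BB i A b (j x) (j y) + BB i A b (j (i x)) (j (i y))

theorem SS_eq (x y : M) : b (nn i x) (tr8 i j A y) = SS i j A b x y := by
  rw [tr8_apply hz hj hij, map_add, map_add, map_add, SS]
  have k1 : ∀ u v w : M, b (nn i u) (A v + i (i (A w))) = b (nn i u) (A (v + w)) := by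
    intro u v w
    rw [map_add, b_z hz hj hij hQ hbi hbj hQi hQj hA, z_nn hz hj hij, map_add, map_add]
  have k2 : ∀ u v : M, b (nn i u) (i v) = b (nn i (i u)) v := by
    intro u v
    rw [← hbi (nn i (i u)) v, nn_i hz hj hij, z_nn hz hj hij]
  have k3 : ∀ u v : M, b (nn i u) (j v) = b (nn i (j u)) v := by
    intro u v
    rw [← hbj (nn i (j u)) v, nn_j hz hj hij, hj, z_nn hz hj hij]
  rw [k1, k2, k1, k3, k1, k2, k3, k1]
  have e1 : y + i (i y) = nn i y := (nn_apply i y).symm
  have e2 : i (i (i y)) + i y = nn i (i y) := by rw [nn_apply, add_comm]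
  have e3 : i (i (j y)) + j y = nn i (j y) := by rw [nn_apply, add_comm]
  have e4 : j (i y) + i (i (j (i y))) = nn i (j (i y)) := (nn_apply i _).symm
  rw [e1, e2, e3, e4]
  rfl

theorem SS_zero (x : M) : SS i j A b x x = 0 ∧ SS i j A b x (i x) = 0 ∧ SS i j A b x (j x) = 0 ∧
    SS i j A b x (j (i x)) = 0 := by
  have hB := BB_comm hz hj hij hQ hbi hbj hQi hQj hA
  have hzr : ∀ x y, BB i A b x (i (i y)) = BB i A b x y := fun x y => by
    rw [BB, nn_z hz hj hij, BB]
  refine ⟨?_, ?_, ?_, ?_⟩
  · have hs := BB_self hz hj hij hQ hbi hbj hQi hQj hA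
    rw [SS, hs, hs, hs, hs, nn_i hz hj hij, hQi, nn_j hz hj hij, hQj, nn_j hz hj hij, hQj, nn_i hz hj hij, hQi]
    have h2 : (2 : K) = 0 := CharTwo.two_eq_zero
    linear_combination (2 * c * Q (nn i x)) * h2
  · rw [SS, hzr, zj hz hj hij, hzr, hB (i x) x, hB (j (i x)) (j x)]
    have h2 : (2 : K) = 0 := CharTwo.two_eq_zero
    linear_combination (BB i A b x (i x) + BB i A b (j x) (j (i x))) * h2
  · rw [SS, hij x, hzr, hj, hzr, zj hz hj hij, hj, hz, hB (j x) x, hB (j (i x)) (i x)]
    have h2 : (2 : K) = 0 := CharTwo.two_eq_zero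
    linear_combination (BB i A b x (j x) + BB i A b (i x) (j (i x))) * h2
  · rw [SS, iji hz hj hij, hj, hzr, hj, hzr, hB (j x) (i x), hB (j (i x)) x]
    have h2 : (2 : K) = 0 := CharTwo.two_eq_zero
    linear_combination (BB i A b x (j (i x)) + BB i A b (i x) (j x)) * h2

theorem SS_add_left (x x' y : M) : SS i j A b (x + x') y = SS i j A b x y + SS i j A b x' y := by
  simp only [← SS_eq hz hj hij hQ hbi hbj hQi hQj hA, map_add, LinearMap.add_apply]

theorem SS_add_right (x y y' : M) : SS i j A b x (y + y') = SS i j A b x y + SS i j A b x y' := by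
  simp only [← SS_eq hz hj hij hQ hbi hbj hQi hQj hA, map_add]

theorem SS_smul_left (a : K) (x y : M) : SS i j A b (a • x) y = a * SS i j A b x y := by
  simp only [← SS_eq hz hj hij hQ hbi hbj hQi hQj hA, map_smul, LinearMap.smul_apply, smul_eq_mul]

theorem SS_smul_right (a : K) (x y : M) : SS i j A b x (a • y) = a * SS i j A b x y := by
  simp only [← SS_eq hz hj hij hQ hbi hbj hQi hQj hA, map_smul, smul_eq_mul]

theorem SS_comm (x y : M) : SS i j A b x y = SS i j A b y x := by
  have hB := BB_comm hz hj hij hQ hbi hbj hQi hQj hA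
  rw [SS, SS, hB x y, hB (i x), hB (j x), hB (j (i x))]

theorem SS_z (x y : M) : SS i j A b x (i (i y)) = SS i j A b x y := by
  have hzr : ∀ x y, BB i A b x (i (i y)) = BB i A b x y := fun x y => by
    rw [BB, nn_z hz hj hij, BB]
  rw [SS, hzr, hzr, zj hz hj hij, hzr, zj hz hj hij, hzr, SS]

/-- the four vectors -/
theorem SS_four (x : M) : ∀ u ∈ ({x, i x, j x, j (i x)} : Set M), ∀ v ∈ ({x, i x, j x, j (i x)} : Set M),
    SS i j A b u v = 0 := by
  have h0 := SS_zero hz hj hij hQ hbi hbj hQi hQj hA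
  have hc := SS_comm hz hj hij hQ hbi hbj hQi hQj hA
  have hs := SS_z hz hj hij hQ hbi hbj hQi hQj hA
  obtain ⟨a0, a1, a2, a3⟩ := h0 x
  have b1 : SS i j A b (i x) (j x) = 0 := by
    have := (h0 (i x)).2.2.2
    rwa [zj hz hj hij, hs] at this
  have b2 : SS i j A b (i x) (j (i x)) = 0 := (h0 (i x)).2.2.1
  have b3 : SS i j A b (j x) (j (i x)) = 0 := by
    have := (h0 (j x)).2.1
    rwa [hij, hs] at this
  have d1 := (h0 (i x)).1
  have d2 := (h0 (j x)).1
  have d3 := (h0 (j (i x))).1
  intro u hu v hv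
  simp only [Set.mem_insert_iff, Set.mem_singleton_iff] at hu hv
  rcases hu with rfl | rfl | rfl | rfl <;> rcases hv with rfl | rfl | rfl | rfl <;>
    first | assumption | (rw [hc]; assumption)

theorem SS_all {x : M} (hx : Submodule.span K ({x, i x, j x, j (i x)} ∪
    {i (i x), i (i (i x)), i (i (j x)), i (i (j (i x)))} : Set M) = ⊤) (u v : M) : SS i j A b u v = 0 := by
  have h4 := SS_four hz hj hij hQ hbi hbj hQi hQj hA x
  have hc := SS_comm hz hj hij hQ hbi hbj hQi hQj hA
  have hs := SS_z hz hj hij hQ hbi hbj hQi hQj hA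
  have h8 : ∀ u ∈ ({x, i x, j x, j (i x)} : Set M), ∀ v ∈ ({x, i x, j x, j (i x)} ∪
    {i (i x), i (i (i x)), i (i (j x)), i (i (j (i x)))} : Set M), SS i j A b u v = 0 := by
    intro u hu v hv
    rcases hv with hv | hv
    · exact h4 u hu v hv
    · simp only [Set.mem_insert_iff, Set.mem_singleton_iff] at hv
      rcases hv with rfl | rfl | rfl | rfl <;> rw [hs] <;> exact h4 u hu _ (by simp)
  have h16 : ∀ v ∈ ({x, i x, j x, j (i x)} ∪
    {i (i x), i (i (i x)), i (i (j x)), i (i (j (i x)))} : Set M), ∀ u ∈ ({x, i x, j x, j (i x)} ∪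
    {i (i x), i (i (i x)), i (i (j x)), i (i (j (i x)))} : Set M), SS i j A b u v = 0 := by
    intro v hv u hu
    rcases hu with hu | hu
    · exact h8 u hu v hv
    · simp only [Set.mem_insert_iff, Set.mem_singleton_iff] at hu
      rw [hc]
      rcases hu with rfl | rfl | rfl | rfl <;> rw [hs, hc] <;> exact h8 _ (by simp) v hv
  have hv : v ∈ (⊤ : Submodule K M) := trivial
  rw [← hx] at hv
  induction hv using Submodule.span_induction with
  | mem v hv =>
    have hu : u ∈ (⊤ : Submodule K M) := trivial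
    rw [← hx] at hu
    induction hu using Submodule.span_induction with
    | mem u hu => exact h16 v hv u hu
    | zero => rw [← zero_smul K (0 : M), SS_smul_left hz hj hij hQ hbi hbj hQi hQj hA, zero_mul]
    | add x y _ _ h1 h2 => rw [SS_add_left hz hj hij hQ hbi hbj hQi hQj hA, h1, h2, add_zero]
    | smul a x _ h1 => rw [SS_smul_left hz hj hij hQ hbi hbj hQi hQj hA, h1, mul_zero]
  | zero => rw [← zero_smul K (0 : M), SS_smul_right hz hj hij hQ hbi hbj hQi hQj hA, zero_mul]
  | add x y _ _ h1 h2 => rw [SS_add_right hz hj hij hQ hbi hbj hQi hQj hA, h1, h2, add_zero]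
  | smul a x _ h1 => rw [SS_smul_right hz hj hij hQ hbi hbj hQi hQj hA, h1, mul_zero]

omit hQ hbi hbj hQi hQj hA in
/-- a vector with nonzero trace generates -/
theorem span_of_tr (hd : finrank K M = 8) {x : M} (hx : nn i (al j (al i x)) ≠ 0) :
    Submodule.span K ({x, i x, j x, j (i x)} ∪
    {i (i x), i (i (i x)), i (i (j x)), i (i (j (i x)))} : Set M) = ⊤ := by
  rw [eq_top_iff, ← fam_span hz hj hij hd hx]
  set W := Submodule.span K ({x, i x, j x, j (i x)} ∪
    {i (i x), i (i (i x)), i (i (j x)), i (i (j (i x)))} : Set M) with hW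
  have m0 : x ∈ W := Submodule.subset_span (by simp)
  have m1 : i x ∈ W := Submodule.subset_span (by simp)
  have m2 : j x ∈ W := Submodule.subset_span (by simp)
  have m3 : j (i x) ∈ W := Submodule.subset_span (by simp)
  have m4 : i (i x) ∈ W := Submodule.subset_span (by simp)
  have m5 : i (i (i x)) ∈ W := Submodule.subset_span (by simp)
  have m6 : i (i (j x)) ∈ W := Submodule.subset_span (by simp)
  have m7 : i (i (j (i x))) ∈ W := Submodule.subset_span (by simp)
  have e1 : al i x ∈ W := by rw [al_apply]; exact W.add_mem m0 m1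
  have e2 : al j x ∈ W := by rw [al_apply]; exact W.add_mem m0 m2
  have e3 : al j (al i x) ∈ W := by
    rw [al_apply, al_apply, map_add]; exact W.add_mem (W.add_mem m0 m1) (W.add_mem m2 m3)
  have e4 : nn i x ∈ W := by rw [nn_apply]; exact W.add_mem m0 m4
  have e5 : nn i (al i x) ∈ W := by
    rw [nn_apply, al_apply, map_add, map_add]; exact W.add_mem (W.add_mem m0 m1) (W.add_mem m4 m5)
  have e6 : nn i (al j x) ∈ W := by
    rw [nn_apply, al_apply, map_add, map_add]; exact W.add_mem (W.add_mem m0 m2) (W.add_mem m4 m6)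
  have e7 : nn i (al j (al i x)) ∈ W := by
    rw [nn_apply, al_apply, al_apply]
    simp only [map_add]
    exact W.add_mem (W.add_mem (W.add_mem m0 m1) (W.add_mem m2 m3))
      (W.add_mem (W.add_mem m4 m5) (W.add_mem m6 m7))
  rw [Submodule.span_le]
  rintro _ ⟨k, rfl⟩
  fin_cases k <;> simpa [fam]

/-- **`TRNIL`** the trace is killed by `1 + z` if there is a vector with nonzero trace -/
theorem nn_tr8 (hnd : ∀ x, (∀ y, b x y = 0) → x = 0) (hd : finrank K M = 8) {x : M}
    (hx : nn i (al j (al i x)) ≠ 0) (y : M) : nn i (tr8 i j A y) = 0 := by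
  apply hnd
  intro u
  have hbc := b_comm hz hj hij hQ hbi hbj hQi hQj hA
  rw [b_nn hz hj hij hQ hbi hbj hQi hQj hA, hbc, SS_eq hz hj hij hQ hbi hbj hQi hQj hA]
  exact SS_all hz hj hij hQ hbi hbj hQi hQj hA (span_of_tr hz hj hij hd hx) u y

/-- **`HIGMAN`** a scalar trace is zero -/
theorem higman (hnd : ∀ x, (∀ y, b x y = 0) → x = 0) (hd : finrank K M = 8) {s : K}
    (hP : ∀ x, tr8 i j A x = s • x) : s = 0 := by
  by_contra hs
  have : Nontrivial M := by
    apply Module.nontrivial_of_finrank_pos (R := K)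
    rw [hd]; norm_num
  obtain ⟨y, hy, hiy, hjy⟩ := exists_fixed (K := K) hz hj hij
  have h1 := hP y
  rw [tr8_apply hz hj hij, hiy, hiy, hjy, hiy] at h1
  simp only [hiy] at h1
  have h2 : nn i (al j (al i (A y))) = s • y := by
    rw [← h1, nn_apply, al_apply, al_apply]
    simp only [map_add, zj hz hj hij]
    simp only [hij (A y), hz]
    abel
  have hx : nn i (al j (al i (A y))) ≠ 0 := by
    rw [h2]; exact smul_ne_zero hs hy
  have h3 : ∀ u : M, nn i u = 0 := by
    intro u
    have := nn_tr8 hz hj hij hQ hbi hbj hQi hQj hA hnd hd hx u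
    rw [hP, map_smul] at this
    exact (smul_eq_zero.1 this).resolve_left hs
  exact hx (h3 _)

end

end Cfsg.Agent.H633.L34
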